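import Cfsg.Agent.H684.EB.Tw

/-!
# TEAM EB, criterion (N4)

`y` of odd order, `f` of order 4 commuting with `y`, inverted by some `n` commuting with `y`; some `m` inverts `y` and
normalizes `⟨f⟩`; the 2-part of `|C(y f)|` is 4. The class function with `Ψ(y f²) = -2`, `Ψ(y f) = Ψ(y f⁻¹) = -1` (times
centralizer orders) has local coefficients `-(χ(y f²) + χ(y f)) / 2`, degree 0 and odd norm.

* `evenS_of_n4`: if these coefficients are in `M` for `χ` outside the principal block, then `EvenS G`.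
-/

set_option autoImplicit false
set_option linter.unusedSectionVars false

namespace Cfsg.Agent.H684.EB

open Cfsg Cfsg.Agent.H610.EB
open scoped ComplexConjugate

universe u v

/-- The data of (N4). -/
structure N4 {G : Type u} [Group G] (y f n m : G) : Prop where
  odd : Odd (orderOf y)
  four : orderOf f = 4
  comm : Commute y f
  ny : Commute n y
  nf : n * f * n⁻¹ = f⁻¹
  my : m * y * m⁻¹ = y⁻¹
  mf : m * f * m⁻¹ = f ∨ m * f * m⁻¹ = f⁻¹
  card : (Nat.card (Subgroup.centralizer ({y * f} : Set G))).factorization 2 = 2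

section delta
variable {G : Type u} [Group G] [DecidableEq G]

/-- indicator function -/
def dl (a : G) : G → ℂ := fun g => if g = a then 1 else 0

theorem dl_def (a g : G) : dl a g = if g = a then 1 else 0 := rfl

theorem conj_dl (a g : G) : conj (dl a g) = dl a g := by
  rw [dl_def]
  split_ifs <;> simp

theorem dl_inv (a g : G) : dl a g⁻¹ = dl a⁻¹ g := by
  rw [dl_def, dl_def]
  congr 1
  rw [inv_eq_iff_eq_inv]

theorem dl_conj (a m g : G) : dl a (m * g * m⁻¹) = dl (m⁻¹ * a * m) g := by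
  rw [dl_def, dl_def]
  congr 1
  apply propext
  constructor
  · intro h
    rw [← h]
    group
  · intro h
    rw [h]
    group

theorem dl_pow {k : ℕ} (hk : ∀ g : G, (g ^ k) ^ k = g) (a g : G) : dl a (g ^ k) = dl (a ^ k) g := by
  rw [dl_def, dl_def]
  congr 1
  apply propext
  constructor
  · intro h
    rw [← h, hk]
  · intro h
    rw [h, hk]

variable [Fintype G]

theorem sum_dl_mul (a : G) (w : G → ℂ) : ∑ h : G, dl a h * w h = w a := by
  simp only [dl_def, ite_mul, one_mul, zero_mul]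
  rw [Finset.sum_ite_eq' Finset.univ a w, if_pos (Finset.mem_univ a)]

theorem avg_dl_self (a : G) : avg (dl a) a = (Nat.card (Subgroup.centralizer ({a} : Set G)) : ℂ) := by
  rw [avg_def]
  simp only [dl_def]
  rw [Finset.sum_boole]
  congr 1
  rw [← Fintype.card_subtype, ← Nat.card_eq_fintype_card]
  refine Nat.card_congr (Equiv.subtypeEquivRight fun t => ?_)
  rw [Subgroup.mem_centralizer_singleton_iff]
  constructor
  · intro h
    calc t * a = t * (t⁻¹ * a * t) := by rw [h]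
      _ = a * t := by group
  · intro h
    rw [mul_assoc, ← h]
    group

theorem avg_dl_conj {a b : G} (m : G) (h : m * a * m⁻¹ = b) :
    avg (dl b) a = (Nat.card (Subgroup.centralizer ({a} : Set G)) : ℂ) := by
  rw [← avg_dl_self]
  have h1 : avg (dl a) = avg (dl b) := avg_congr m fun g => by
    rw [dl_conj, ← h]
    congr 1
    group
  rw [h1]

theorem avg_dl_of_not {a b : G} (h : ∀ t : G, t⁻¹ * a * t ≠ b) : avg (dl b) a = 0 := by
  rw [avg_def]
  exact Finset.sum_eq_zero fun t _ => by rw [dl_def, if_neg (h t)]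

end delta

section
variable {G : Type u} [Group G]

theorem orderOf_conjug (a t : G) : orderOf (t * a * t⁻¹) = orderOf a :=
  MulEquiv.orderOf_eq (MulAut.conj t) a

theorem orderOf_conj' (a t : G) : orderOf (t⁻¹ * a * t) = orderOf a := by
  have := orderOf_conjug a t⁻¹
  rwa [inv_inv] at this

theorem N4.comm2 {y f n m : G} (h : N4 y f n m) : Commute y (f ^ 2) := h.comm.pow_right 2

theorem N4.f4 {y f n m : G} (h : N4 y f n m) : f ^ 4 = 1 := by rw [← h.four, pow_orderOf_eq_one]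

theorem N4.f2_ne {y f n m : G} (h : N4 y f n m) : f ^ 2 ≠ 1 := by
  intro h1
  have h2 := orderOf_dvd_of_pow_eq_one h1
  rw [h.four] at h2
  exact absurd h2 (by decide)

theorem N4.f_ne_inv {y f n m : G} (h : N4 y f n m) : f ≠ f⁻¹ := by
  intro h1
  apply h.f2_ne
  rw [pow_two]
  nth_rewrite 2 [h1]
  rw [mul_inv_cancel]

theorem N4.inv_f2 {y f n m : G} (h : N4 y f n m) : (f ^ 2)⁻¹ = f ^ 2 := by
  rw [inv_eq_iff_mul_eq_one, ← pow_add]
  exact h.f4

theorem N4.m_yf2 {y f n m : G} (h : N4 y f n m) : m * (y * f ^ 2) * m⁻¹ = (y * f ^ 2)⁻¹ := by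
  have h1 : m * f ^ 2 * m⁻¹ = f ^ 2 := by
    rcases h.mf with h2 | h2
    · rw [← conj_pow, h2]
    · rw [← conj_pow, h2, inv_pow, h.inv_f2]
  calc m * (y * f ^ 2) * m⁻¹ = (m * y * m⁻¹) * (m * f ^ 2 * m⁻¹) := by group
    _ = y⁻¹ * (f ^ 2)⁻¹ := by rw [h.my, h1, h.inv_f2]
    _ = (y * f ^ 2)⁻¹ := by rw [mul_inv_rev, (h.comm2.inv_inv).eq]

theorem N4.m_yf {y f n m : G} (h : N4 y f n m) :
    (m * (y * f) * m⁻¹ = (y * f)⁻¹ ∧ m * (y * f⁻¹) * m⁻¹ = (y * f⁻¹)⁻¹) ∨
      (m * (y * f) * m⁻¹ = (y * f⁻¹)⁻¹ ∧ m * (y * f⁻¹) * m⁻¹ = (y * f)⁻¹) := by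
  have h1 : m * (y * f) * m⁻¹ = y⁻¹ * (m * f * m⁻¹) := by
    rw [← h.my]
    group
  have h2 : m * (y * f⁻¹) * m⁻¹ = y⁻¹ * (m * f * m⁻¹)⁻¹ := by
    rw [← h.my]
    group
  have h3 : (y * f)⁻¹ = y⁻¹ * f⁻¹ := by rw [mul_inv_rev, h.comm.inv_inv.eq]
  have h4 : (y * f⁻¹)⁻¹ = y⁻¹ * f := by rw [mul_inv_rev, inv_inv, (h.comm.inv_left).eq]
  rcases h.mf with h5 | h5
  · right
    rw [h1, h2, h5, h3, h4]
    exact ⟨rfl, rfl⟩
  · left
    rw [h1, h2, h5, h3, h4, inv_inv]
    exact ⟨rfl, rfl⟩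

theorem N4.n_yf {y f n m : G} (h : N4 y f n m) : n * (y * f) * n⁻¹ = y * f⁻¹ := by
  calc n * (y * f) * n⁻¹ = (n * y * n⁻¹) * (n * f * n⁻¹) := by group
    _ = y * f⁻¹ := by rw [h.nf, h.ny.eq, mul_inv_cancel_right]

theorem N4.orderOf_yf2 {y f n m : G} (h : N4 y f n m) : orderOf (y * f ^ 2) = orderOf y * 2 := by
  have h1 : orderOf (f ^ 2) = 2 := by
    rw [orderOf_pow' f (by norm_num), h.four]
    norm_num
  rw [h.comm2.orderOf_mul_eq_mul_orderOf_of_coprime (by rw [h1]; exact Nat.coprime_two_right.2 h.odd), h1]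

theorem N4.orderOf_yf {y f n m : G} (h : N4 y f n m) : orderOf (y * f) = orderOf y * 4 := by
  rw [h.comm.orderOf_mul_eq_mul_orderOf_of_coprime (by
    rw [h.four]
    exact (Nat.coprime_two_right.2 h.odd).pow_right 2), h.four]

theorem N4.orderOf_yfi {y f n m : G} (h : N4 y f n m) : orderOf (y * f⁻¹) = orderOf y * 4 := by
  rw [← h.n_yf, ← h.orderOf_yf]
  exact orderOf_conjug (y * f) n

/-- The centralizer of `y f` centralizes `y` and `f`. -/
theorem N4.mem_centralizer {y f n m : G} (h : N4 y f n m) {g : G} :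
    g ∈ Subgroup.centralizer ({y * f} : Set G) ↔ Commute g y ∧ Commute g f := by
  rw [Subgroup.mem_centralizer_singleton_iff]
  constructor
  · intro h1
    have hc : Commute g (y * f) := h1
    obtain ⟨a, ha0, ha1⟩ := Nat.chineseRemainder
      (show Nat.Coprime (orderOf y) 4 from (Nat.coprime_two_right.2 h.odd).pow_right 2) 1 0
    obtain ⟨b, hb0, hb1⟩ := Nat.chineseRemainder
      (show Nat.Coprime (orderOf y) 4 from (Nat.coprime_two_right.2 h.odd).pow_right 2) 0 1
    have h2 : (y * f) ^ a = y := by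
      rw [h.comm.mul_pow]
      have h3 : y ^ a = y := by
        nth_rewrite 2 [← pow_one y]
        rw [pow_eq_pow_iff_modEq]
        exact ha0
      have h4 : f ^ a = 1 := by
        rw [← pow_zero f, pow_eq_pow_iff_modEq, h.four]
        exact ha1
      rw [h3, h4, mul_one]
    have h2' : (y * f) ^ b = f := by
      rw [h.comm.mul_pow]
      have h3 : f ^ b = f := by
        nth_rewrite 2 [← pow_one f]
        rw [pow_eq_pow_iff_modEq, h.four]
        exact hb1
      have h4 : y ^ b = 1 := by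
        rw [← pow_zero y, pow_eq_pow_iff_modEq]
        exact hb0
      rw [h3, h4, one_mul]
    constructor
    · have h5 := hc.pow_right a
      rwa [h2] at h5
    · have h5 := hc.pow_right b
      rwa [h2'] at h5
  · rintro ⟨h1, h2⟩
    exact (h1.mul_right h2).eq

/-- `8` divides the order of the centralizer of `y f²`. -/
theorem N4.eight [Finite G] {y f n m : G} (h : N4 y f n m) :
    2 * Nat.card (Subgroup.centralizer ({y * f} : Set G)) ∣
      Nat.card (Subgroup.centralizer ({y * f ^ 2} : Set G)) := by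
  let K : Subgroup G :=
    { carrier := {g | Commute g y ∧ (g * f * g⁻¹ = f ∨ g * f * g⁻¹ = f⁻¹)}
      one_mem' := ⟨Commute.one_left _, Or.inl (by group)⟩
      mul_mem' := by
        rintro a b ⟨ha, ha'⟩ ⟨hb, hb'⟩
        refine ⟨ha.mul_left hb, ?_⟩
        have e : a * b * f * (a * b)⁻¹ = a * (b * f * b⁻¹) * a⁻¹ := by group
        rw [e]
        rcases hb' with h1 | h1
        · rw [h1]
          exact ha'
        · rw [h1, show a * f⁻¹ * a⁻¹ = (a * f * a⁻¹)⁻¹ by group]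
          rcases ha' with h2 | h2
          · right
            rw [h2]
          · left
            rw [h2, inv_inv]
      inv_mem' := by
        rintro a ⟨ha, ha'⟩
        refine ⟨ha.inv_left, ?_⟩
        rcases ha' with h1 | h1
        · left
          nth_rewrite 1 [← h1]
          group
        · right
          have h2 : a * f⁻¹ * a⁻¹ = f := by
            rw [show a * f⁻¹ * a⁻¹ = (a * f * a⁻¹)⁻¹ by group, h1, inv_inv]
          nth_rewrite 1 [← h2]
          group }
  have hK : ∀ g, g ∈ K ↔ Commute g y ∧ (g * f * g⁻¹ = f ∨ g * f * g⁻¹ = f⁻¹) := fun g => Iff.rfl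
  set H := Subgroup.centralizer ({y * f} : Set G) with hH
  have hHm : ∀ g, g ∈ H ↔ Commute g y ∧ g * f * g⁻¹ = f := by
    intro g
    rw [hH, h.mem_centralizer, mul_inv_eq_iff_eq_mul]
    rfl
  have hHK : H ≤ K := by
    intro g hg
    rw [hHm] at hg
    exact (hK g).2 ⟨hg.1, Or.inl hg.2⟩
  have hKL : K ≤ Subgroup.centralizer ({y * f ^ 2} : Set G) := by
    intro g hg
    rw [hK] at hg
    rw [Subgroup.mem_centralizer_singleton_iff]
    have h1 : Commute g (f ^ 2) := by
      rw [Commute, SemiconjBy, ← mul_inv_eq_iff_eq_mul, ← conj_pow]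
      rcases hg.2 with h2 | h2
      · rw [h2]
      · rw [h2, inv_pow, h.inv_f2]
    exact (hg.1.mul_right h1).eq
  have hnK : n ∈ K := (hK n).2 ⟨h.ny, Or.inr h.nf⟩
  have h2 : (H.subgroupOf K).index = 2 := by
    rw [Subgroup.index_eq_two_iff]
    refine ⟨⟨n, hnK⟩, fun b => ?_⟩
    rw [Subgroup.mem_subgroupOf, Subgroup.mem_subgroupOf, Subgroup.coe_mul]
    obtain ⟨b, hb⟩ := b
    rw [hK] at hb
    simp only [hHm]
    have e : b * n * f * (b * n)⁻¹ = (b * f * b⁻¹)⁻¹ := by
      rw [show b * n * f * (b * n)⁻¹ = b * (n * f * n⁻¹) * b⁻¹ by group, h.nf]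
      group
    rw [e]
    have hbn : Commute (b * n) y := hb.1.mul_left h.ny
    rcases hb.2 with h3 | h3
    · right
      refine ⟨⟨hb.1, h3⟩, fun h4 => ?_⟩
      rw [h3] at h4
      exact h.f_ne_inv h4.2.symm
    · left
      refine ⟨⟨hbn, by rw [h3, inv_inv]⟩, fun h4 => ?_⟩
      rw [h3] at h4
      exact h.f_ne_inv h4.2.symm
  have h3 : Nat.card K = 2 * Nat.card H := by
    rw [← Subgroup.card_mul_index (H.subgroupOf K), h2, mul_comm,
      Nat.card_congr (Subgroup.subgroupOfEquivOfLe hHK).toEquiv]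
  rw [← h3]
  exact Subgroup.card_dvd_of_le hKL

end

section
variable {G : Type u} [Group G] [Fintype G]

open Classical in
/-- The function of (N4). -/
noncomputable def n4F (y f : G) : G → ℂ := fun g => -2 * dl (y * f ^ 2) g - dl (y * f) g - dl (y * f⁻¹) g

/-- The class function of (N4). -/
noncomputable def n4Psi (y f : G) : G → ℂ := fun g => (4 : ℂ)⁻¹ * avg (n4F y f) g

theorem n4Psi_def (y f g : G) : n4Psi y f g = (4 : ℂ)⁻¹ * avg (n4F y f) g := rfl

open Classical in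
theorem n4F_def (y f g : G) : n4F y f g = -2 * dl (y * f ^ 2) g - dl (y * f) g - dl (y * f⁻¹) g := rfl

theorem n4Psi_cf (y f : G) : IsClassFunction G (n4Psi y f) := by
  intro g h
  rw [n4Psi_def, n4Psi_def, isClassFunction_avg]

theorem n4Psi_real (y f g : G) : conj (n4Psi y f g) = n4Psi y f g := by
  classical
  have h2 : conj (2 : ℂ) = 2 := map_ofNat _ 2
  have h4 : conj (4 : ℂ) = 4 := map_ofNat _ 4
  rw [n4Psi_def, map_mul, map_inv₀, h4, conj_avg fun g => by
    rw [n4F_def, map_sub, map_sub, map_mul, conj_dl, conj_dl, conj_dl, map_neg, h2]]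

theorem n4F_inv {y f n m : G} (h : N4 y f n m) (g : G) : n4F y f g⁻¹ = n4F y f (m * g * m⁻¹) := by
  classical
  have hi : ∀ {a b : G}, m * a * m⁻¹ = b⁻¹ → m⁻¹ * b * m = a⁻¹ := by
    intro a b hab
    have h1 : b = (m * a * m⁻¹)⁻¹ := by rw [hab, inv_inv]
    rw [h1]
    group
  rw [n4F_def, n4F_def]
  have h1 : ∀ a : G, dl a g⁻¹ = dl a⁻¹ g := fun a => by rw [dl_inv]
  have h2 : ∀ a : G, dl a (m * g * m⁻¹) = dl (m⁻¹ * a * m) g := fun a => by rw [dl_conj]
  rw [h1, h1, h1, h2, h2, h2, hi h.m_yf2]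
  rcases h.m_yf with ⟨h3, h4⟩ | ⟨h3, h4⟩
  · rw [hi h3, hi h4]
  · rw [hi h3, hi h4]
    ring

theorem n4Psi_inv {y f n m : G} (h : N4 y f n m) (g : G) : n4Psi y f g⁻¹ = n4Psi y f g := by
  rw [n4Psi_def, n4Psi_def]
  congr 1
  rw [avg_comp (n4F y f) (fun g => g⁻¹) (fun t g => by group),
    avg_congr (F := n4F y f) (F' := fun g => n4F y f g⁻¹) m (fun g => n4F_inv h g)]

theorem n4Psi_pow {y f n m : G} (h : N4 y f n m) {k : ℕ} (hk : IsK G k) (g : G) :
    n4Psi y f (g ^ k) = n4Psi y f g := by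
  classical
  rw [← n4Psi_inv h g, n4Psi_def, n4Psi_def]
  congr 1
  rw [avg_comp (n4F y f) (fun g => g ^ k) (fun t g => by
      have := conj_pow (i := k) (a := t⁻¹) (b := g)
      simpa using this),
    avg_comp (n4F y f) (fun g => g⁻¹) (fun t g => by group)]
  congr 1
  funext g
  have h1 : ∀ a : G, dl a (g ^ k) = dl (a ^ k) g := fun a => by rw [dl_pow hk.pow_pow]
  have h2 : ∀ a : G, dl a g⁻¹ = dl a⁻¹ g := fun a => by rw [dl_inv]
  have hy : y ^ k = y⁻¹ := hk.odd y h.odd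
  have hf : f ^ k = f := hk.two f ⟨2, by rw [h.four]; norm_num⟩
  have e1 : (y * f ^ 2) ^ k = (y * f ^ 2)⁻¹ := by
    rw [h.comm2.mul_pow, hy, mul_inv_rev, h.inv_f2, ← pow_mul, mul_comm 2 k, pow_mul, hf,
      (h.comm2.inv_left).eq]
  have e2 : (y * f) ^ k = (y * f⁻¹)⁻¹ := by
    rw [h.comm.mul_pow, hy, hf, mul_inv_rev, inv_inv, (h.comm.inv_left).eq]
  have e3 : (y * f⁻¹) ^ k = (y * f)⁻¹ := by
    rw [h.comm.inv_right.mul_pow, hy, inv_pow, hf, mul_inv_rev, (h.comm.inv_inv).eq]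
  show n4F y f (g ^ k) = n4F y f g⁻¹
  rw [n4F_def, n4F_def, h1, h1, h1, h2, h2, h2, e1, e2, e3]
  ring

open Classical in
/-- sums against the function of (N4) -/
theorem sum_n4F (y f : G) (w : G → ℂ) :
    ∑ h : G, n4F y f h * w h = -2 * w (y * f ^ 2) - w (y * f) - w (y * f⁻¹) := by
  have h1 : ∀ h : G, n4F y f h * w h =
      -2 * (dl (y * f ^ 2) h * w h) - dl (y * f) h * w h - dl (y * f⁻¹) h * w h := by
    intro h
    rw [n4F_def]
    ring
  rw [Finset.sum_congr rfl fun h _ => h1 h, Finset.sum_sub_distrib, Finset.sum_sub_distrib,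
    ← Finset.mul_sum, sum_dl_mul, sum_dl_mul, sum_dl_mul]

theorem n4_classInner_aux (y f : G) {χ : G → ℂ} (hχ : IsClassFunction G χ) :
    classInner (n4Psi y f) χ =
      (4 : ℂ)⁻¹ * (-2 * conj (χ (y * f ^ 2)) - conj (χ (y * f)) - conj (χ (y * f⁻¹))) := by
  have h1 : n4Psi y f = (4 : ℂ)⁻¹ • avg (n4F y f) := rfl
  rw [h1, Characters.Core.classInner_smul_left, classInner_avg _ hχ,
    sum_n4F y f (fun h => conj (χ h))]

/-- The coefficients. -/
theorem n4_classInner {y f n m : G} (h : N4 y f n m) (χ : IrrCharacter G) :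
    classInner (n4Psi y f) (χ : G → ℂ) =
      -(((χ : G → ℂ) (y * f ^ 2) + (χ : G → ℂ) (y * f)) / 2) := by
  have hcf := Characters.Core.isIrr_isClassFunction χ.2
  have hch := Characters.Core.isIrr_isCharacter χ.2
  rw [n4_classInner_aux y f hcf, ← Characters.Core.isCharacter_apply_inv hch,
    ← Characters.Core.isCharacter_apply_inv hch, ← Characters.Core.isCharacter_apply_inv hch,
    ← h.m_yf2, hcf]
  have h1 : (χ : G → ℂ) (y * f⁻¹) = (χ : G → ℂ) (y * f) := by
    rw [← h.n_yf, hcf]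
  rcases h.m_yf with ⟨h3, h4⟩ | ⟨h3, h4⟩
  · rw [← h3, ← h4, hcf, hcf, h1]
    ring
  · rw [← h3, ← h4, hcf, hcf, h1]
    ring

theorem N4.apply_f3 {y f n m : G} (h : N4 y f n m) {χ : G → ℂ} (hχ : IsClassFunction G χ) :
    χ (y * f ^ 3) = χ (y * f) := by
  have h1 : f ^ 3 = f⁻¹ := by
    rw [eq_inv_iff_mul_eq_one, ← pow_succ]
    exact h.f4
  rw [h1, ← h.n_yf, hχ]

theorem N4.isIntegral {y f n m : G} (h : N4 y f n m) {χ : G → ℂ} (hχ : IsCharacter G χ) :
    IsIntegral ℤ ((χ (y * f ^ 2) + χ (y * f)) / 2) :=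
  isIntegral_half hχ h.comm h.f4 (h.apply_f3 (Characters.Core.isCharacter_isClassFunction hχ))

open Classical in
/-- The values. -/
theorem avg_n4F (y f g : G) :
    avg (n4F y f) g = -2 * avg (dl (y * f ^ 2)) g - avg (dl (y * f)) g - avg (dl (y * f⁻¹)) g := by
  simp only [avg_def, n4F_def]
  rw [Finset.sum_sub_distrib, Finset.sum_sub_distrib, ← Finset.mul_sum]

open Classical in
theorem n4Psi_zero {y f g : G} (h2 : ∀ t : G, t⁻¹ * g * t ≠ y * f ^ 2) (h1 : ∀ t : G, t⁻¹ * g * t ≠ y * f)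
    (h3 : ∀ t : G, t⁻¹ * g * t ≠ y * f⁻¹) : n4Psi y f g = 0 := by
  rw [n4Psi_def, avg_n4F, avg_dl_of_not h2, avg_dl_of_not h1, avg_dl_of_not h3]
  ring

open Classical in
theorem n4Psi_yf2 {y f n m : G} (h : N4 y f n m) : n4Psi y f (y * f ^ 2) =
    -((Nat.card (Subgroup.centralizer ({y * f ^ 2} : Set G)) : ℂ) / 2) := by
  have hy0 : 0 < orderOf y := orderOf_pos y
  rw [n4Psi_def, avg_n4F, avg_dl_self, avg_dl_of_not (fun t ht => by
      have h1 := orderOf_conj' (y * f ^ 2) t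
      rw [ht, h.orderOf_yf, h.orderOf_yf2] at h1
      omega), avg_dl_of_not (fun t ht => by
      have h1 := orderOf_conj' (y * f ^ 2) t
      rw [ht, h.orderOf_yfi, h.orderOf_yf2] at h1
      omega)]
  ring

open Classical in
theorem n4Psi_yf {y f n m : G} (h : N4 y f n m) : n4Psi y f (y * f) =
    -((Nat.card (Subgroup.centralizer ({y * f} : Set G)) : ℂ) / 2) := by
  have hy0 : 0 < orderOf y := orderOf_pos y
  rw [n4Psi_def, avg_n4F, avg_dl_self, avg_dl_of_not (fun t ht => by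
      have h1 := orderOf_conj' (y * f) t
      rw [ht, h.orderOf_yf, h.orderOf_yf2] at h1
      omega), avg_dl_conj n h.n_yf]
  ring

theorem n4Psi_one {y f n m : G} (h : N4 y f n m) : n4Psi y f 1 = 0 := by
  have hy0 : 0 < orderOf y := orderOf_pos y
  have e : ∀ t : G, t⁻¹ * 1 * t = 1 := fun t => by group
  refine n4Psi_zero ?_ ?_ ?_
  · intro t ht
    have h1 := h.orderOf_yf2
    rw [← ht, e, orderOf_one] at h1
    omega
  · intro t ht
    have h1 := h.orderOf_yf
    rw [← ht, e, orderOf_one] at h1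
    omega
  · intro t ht
    have h1 := h.orderOf_yfi
    rw [← ht, e, orderOf_one] at h1
    omega

/-- The norm is odd. -/
theorem n4_norm {y f n m : G} (h : N4 y f n m) :
    ∃ N : ℕ, Odd N ∧ classInner (n4Psi y f) (n4Psi y f) = N := by
  have h1 := n4_classInner_aux y f (n4Psi_cf y f)
  rw [n4Psi_real, n4Psi_real, n4Psi_real] at h1
  have h2 : n4Psi y f (y * f⁻¹) = n4Psi y f (y * f) := by
    rw [← h.n_yf]
    exact n4Psi_cf y f _ _
  rw [h2, n4Psi_yf2 h, n4Psi_yf h] at h1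
  set a := Nat.card (Subgroup.centralizer ({y * f} : Set G)) with ha
  set b := Nat.card (Subgroup.centralizer ({y * f ^ 2} : Set G)) with hb
  have ha0 : a ≠ 0 := Nat.card_pos.ne'
  obtain ⟨c, hc⟩ := h.eight
  rw [← ha, ← hb] at hc
  obtain ⟨d, hd, hda⟩ : ∃ d : ℕ, Odd d ∧ a = 4 * d := by
    have h3 := Nat.ordProj_mul_ordCompl_eq_self a 2
    rw [ha, h.card, ← ha] at h3
    refine ⟨a / 2 ^ 2, ?_, by rw [← h3]; norm_num⟩
    have h4 := Nat.not_dvd_ordCompl Nat.prime_two ha0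
    rw [ha, h.card, ← ha] at h4
    rw [← Nat.not_even_iff_odd, even_iff_two_dvd]
    exact h4
  refine ⟨2 * (d * c) + d, ?_, ?_⟩
  · exact Even.add_odd (even_two_mul _) hd
  · rw [h1, hc, hda]
    push_cast
    ring

theorem classInner_top (N : Subgroup G) [Fintype N] (hN : N = ⊤) (φ ψ : G → ℂ) :
    classInner (fun n : N => φ n) (fun n : N => ψ n) = classInner φ ψ := by
  subst hN
  rw [Characters.Core.classInner_def, Characters.Core.classInner_def, Subgroup.card_top]
  congr 1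
  exact Fintype.sum_equiv Subgroup.topEquiv.toEquiv _ _ fun _ => rfl

/-- **(N4)** -/
theorem evenS_of_n4 {y f n m : G} (h : N4 y f n m)
    (hB : ∀ M : Ideal AlgInt, IsPModular 2 M → ∀ χ : IrrCharacter G, χ ∉ principalBlock M G →
      MemLocalIdeal M (((χ : G → ℂ) (y * f ^ 2) + (χ : G → ℂ) (y * f)) / 2)) : EvenS G := by
  intro k hk M hM
  have hprime : M.IsPrime := Blocks.Local.isPrime_of_isPModular hM
  have hfin : Fintype (⊤ : Subgroup G) := Fintype.ofFinite _
  obtain ⟨N, hN, hnorm⟩ := n4_norm h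
  obtain ⟨χ, h1, h2, h3, h4⟩ := H612.Base.crit (km_of_isK hk) (⊤ : Subgroup G) hM
    (Ψ := n4Psi y f) (n4Psi_cf y f) (n4Psi_inv h) (n4Psi_real y f) (n4Psi_pow h hk) (fun χ => by
      rw [n4_classInner h]
      exact Blocks.Local.memLocalRing_neg (Blocks.Local.memLocalRing_of_isIntegral
        (h.isIntegral (Characters.Core.isIrr_isCharacter χ.2)))) (by
      rw [classInner_top ⊤ rfl, hnorm, n4Psi_one h]
      have e : ((N : ℂ) - 0 ^ 2) = N := by ring
      rw [e, Blocks.Local.memLocalIdeal_natCast_iff hM, ← even_iff_two_dvd, Nat.not_even_iff_odd]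
      exact hN)
  refine ⟨χ, ?_, h2, h1, ?_⟩
  · by_contra hcon
    apply h4
    rw [n4_classInner h, Blocks.Local.memLocalIdeal_neg_iff]
    exact hB M hM χ hcon
  · intro h5
    obtain ⟨g, -, hg⟩ := h3
    exact hg (by rw [h5])

/-- **(N4)**, with vanishing outside the principal block -/
theorem evenS_of_n4' {y f n m : G} (h : N4 y f n m)
    (hB : ∀ M : Ideal AlgInt, IsPModular 2 M → ∀ χ : IrrCharacter G, χ ∉ principalBlock M G →
      (χ : G → ℂ) (y * f ^ 2) = 0 ∧ (χ : G → ℂ) (y * f) = 0) : EvenS G := by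
  refine evenS_of_n4 h fun M hM χ hχ => ?_
  have hprime : M.IsPrime := Blocks.Local.isPrime_of_isPModular hM
  rw [(hB M hM χ hχ).1, (hB M hM χ hχ).2]
  have e : ((0 : ℂ) + 0) / 2 = 0 := by ring
  rw [e]
  exact Blocks.Local.memLocalIdeal_zero

end

end Cfsg.Agent.H684.EB
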