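import Mathlib

/-!
# Nonabelian groups of order 8

`exists_four`: an automorphism of 2-power order of a nonabelian group of order 8 normalizes a cyclic
subgroup of order 4.
-/

set_option autoImplicit false

namespace Cfsg.Agent.H684.EB.Ord8

variable {Q : Type*} [Group Q]

theorem card_center (hQ : Nat.card Q = 8) (hna : ¬ ∀ a b : Q, a * b = b * a) :
    Nat.card (Subgroup.center Q) = 2 := by
  have : Finite Q := Nat.finite_of_card_ne_zero (by rw [hQ]; norm_num)
  have : Fact (Nat.Prime 2) := ⟨Nat.prime_two⟩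
  have hp : IsPGroup 2 Q := IsPGroup.of_card (n := 3) (by rw [hQ]; norm_num)
  have hnt : Nontrivial Q := by
    rw [← Finite.one_lt_card_iff_nontrivial, hQ]
    norm_num
  have h1 : Nat.card (Subgroup.center Q) ∣ 2 ^ 3 := by
    have := Subgroup.card_subgroup_dvd_card (Subgroup.center Q)
    rwa [hQ] at this
  obtain ⟨i, hi, hc⟩ := (Nat.dvd_prime_pow Nat.prime_two).1 h1
  have h2 : Nontrivial (Subgroup.center Q) := hp.center_nontrivial
  have h3 : i ≠ 0 := by
    rintro rfl
    rw [← Finite.one_lt_card_iff_nontrivial, hc] at h2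
    norm_num at h2
  have hidx := Subgroup.card_mul_index (Subgroup.center Q)
  rw [hQ, hc] at hidx
  have hcyc : ¬ IsCyclic (Q ⧸ Subgroup.center Q) := by
    intro h
    apply hna
    exact commutative_of_cyclic_center_quotient (QuotientGroup.mk' (Subgroup.center Q)) (by
      rw [QuotientGroup.ker_mk'])
  rcases (by omega : i = 1 ∨ i = 2 ∨ i = 3) with rfl | rfl | rfl
  · rw [hc, pow_one]
  · exfalso
    apply hcyc
    have h4 : Nat.card (Q ⧸ Subgroup.center Q) = 2 := by
      show (Subgroup.center Q).index = 2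
      omega
    exact isCyclic_of_prime_card h4
  · exfalso
    apply hcyc
    have h4 : Nat.card (Q ⧸ Subgroup.center Q) = 1 := by
      show (Subgroup.center Q).index = 1
      omega
    have := (Nat.card_eq_one_iff_unique.1 h4).1
    exact isCyclic_of_subsingleton

theorem card_quot (hQ : Nat.card Q = 8) (hna : ¬ ∀ a b : Q, a * b = b * a) :
    Nat.card (Q ⧸ Subgroup.center Q) = 4 := by
  have h1 := card_center hQ hna
  have h2 := Subgroup.card_mul_index (Subgroup.center Q)
  rw [h1, hQ] at h2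
  show (Subgroup.center Q).index = 4
  omega

theorem sq_mem (hQ : Nat.card Q = 8) (hna : ¬ ∀ a b : Q, a * b = b * a) (x : Q) :
    x ^ 2 ∈ Subgroup.center Q := by
  have : Finite Q := Nat.finite_of_card_ne_zero (by rw [hQ]; norm_num)
  have : Fact (Nat.Prime 2) := ⟨Nat.prime_two⟩
  have hcyc : ¬ IsCyclic (Q ⧸ Subgroup.center Q) := by
    intro h
    apply hna
    exact commutative_of_cyclic_center_quotient (QuotientGroup.mk' (Subgroup.center Q)) (by
      rw [QuotientGroup.ker_mk'])
  have h1 : Monoid.exponent (Q ⧸ Subgroup.center Q) = 2 :=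
    (not_isCyclic_iff_exponent_eq_prime Nat.prime_two (by rw [card_quot hQ hna]; norm_num)).1 hcyc
  have h2 : (QuotientGroup.mk x : Q ⧸ Subgroup.center Q) ^ 2 = 1 := by
    rw [← h1]
    exact Monoid.pow_exponent_eq_one _
  rw [← QuotientGroup.mk_pow] at h2
  exact (QuotientGroup.eq_one_iff _).1 h2

/-- the central involution -/
theorem exists_z (hQ : Nat.card Q = 8) (hna : ¬ ∀ a b : Q, a * b = b * a) :
    ∃ z : Q, z ≠ 1 ∧ z * z = 1 ∧ ∀ x, x ∈ Subgroup.center Q ↔ x = 1 ∨ x = z := by
  have h1 := card_center hQ hna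
  obtain ⟨a, b, hab, huniv⟩ := Nat.card_eq_two_iff.1 h1
  have hmem : ∀ x : Subgroup.center Q, x = a ∨ x = b := by
    intro x
    have : x ∈ ({a, b} : Set (Subgroup.center Q)) := by
      rw [huniv]
      exact Set.mem_univ _
    simpa using this
  obtain ⟨z, hz, hz1⟩ : ∃ z : Subgroup.center Q, z ≠ 1 ∧ ∀ x, x = 1 ∨ x = z := by
    rcases hmem 1 with h | h
    · refine ⟨b, fun h2 => hab (h.symm.trans h2.symm), fun x => ?_⟩
      rw [h]
      exact hmem x
    · refine ⟨a, fun h2 => hab (h2.trans h), fun x => ?_⟩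
      rw [h]
      exact (hmem x).symm
  refine ⟨z, fun h => hz (Subtype.ext h), ?_, fun x => ⟨fun hx => ?_, fun hx => ?_⟩⟩
  · rcases hz1 (z * z) with h | h
    · exact congrArg Subtype.val h
    · exfalso
      apply hz
      have h2 : z * z = z * 1 := by rw [h, mul_one]
      exact mul_left_cancel h2
  · rcases hz1 ⟨x, hx⟩ with h | h
    · left
      exact congrArg Subtype.val h
    · right
      exact congrArg Subtype.val h
  · rcases hx with rfl | rfl
    · exact one_mem _
    · exact z.2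

theorem comm_mem (hQ : Nat.card Q = 8) (hna : ¬ ∀ a b : Q, a * b = b * a) (x y : Q) :
    ∃ c ∈ Subgroup.center Q, x * y * x⁻¹ = y * c := by
  refine ⟨y⁻¹ * (x * y * x⁻¹), ?_, by group⟩
  -- the quotient has exponent two
  have h : ∀ a : Q, (QuotientGroup.mk a : Q ⧸ Subgroup.center Q) * QuotientGroup.mk a = 1 := by
    intro a
    rw [← QuotientGroup.mk_mul, QuotientGroup.eq_one_iff, ← pow_two]
    exact sq_mem hQ hna a
  have h2 : ∀ a b : Q ⧸ Subgroup.center Q, a * b = b * a := by
    intro a b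
    obtain ⟨a, rfl⟩ := QuotientGroup.mk_surjective a
    obtain ⟨b, rfl⟩ := QuotientGroup.mk_surjective b
    have h3 := h (a * b)
    have ha := h a
    have hb := h b
    rw [QuotientGroup.mk_mul] at h3
    have h4 : (QuotientGroup.mk a : Q ⧸ Subgroup.center Q)⁻¹ = QuotientGroup.mk a :=
      inv_eq_of_mul_eq_one_left ha
    have h5 : (QuotientGroup.mk b : Q ⧸ Subgroup.center Q)⁻¹ = QuotientGroup.mk b :=
      inv_eq_of_mul_eq_one_left hb
    have h6 := inv_eq_of_mul_eq_one_left h3
    rw [mul_inv_rev, h4, h5] at h6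
    exact h6.symm
  rw [← QuotientGroup.eq_one_iff, QuotientGroup.mk_mul, QuotientGroup.mk_mul, QuotientGroup.mk_mul,
    QuotientGroup.mk_inv, QuotientGroup.mk_inv, h2 (x : Q ⧸ Subgroup.center Q) y, mul_inv_cancel_right,
    inv_mul_cancel]

/-- **An automorphism of 2-power order of a nonabelian group of order 8 normalizes a cyclic subgroup of
order 4.** -/
theorem exists_four (hQ : Nat.card Q = 8) (hna : ¬ ∀ a b : Q, a * b = b * a) (α : MulAut Q)
    (hα : ∃ j : ℕ, α ^ 2 ^ j = 1) :
    ∃ f n : Q, orderOf f = 4 ∧ n * f * n⁻¹ = f⁻¹ ∧ (α f = f ∨ α f = f⁻¹) := by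
  classical
  have hfin : Finite Q := Nat.finite_of_card_ne_zero (by rw [hQ]; norm_num)
  have : Fact (Nat.Prime 2) := ⟨Nat.prime_two⟩
  obtain ⟨z, hz1, hzz, hz⟩ := exists_z hQ hna
  have hzc : ∀ x : Q, x * z = z * x := fun x =>
    Subgroup.mem_center_iff.1 ((hz z).2 (Or.inr rfl)) x
  have hαz : ∀ x, x ∈ Subgroup.center Q → α x ∈ Subgroup.center Q := by
    intro x hx
    rw [Subgroup.mem_center_iff] at hx ⊢
    intro g
    have h1 := congrArg α (hx (α.symm g))
    rw [map_mul, map_mul, MulEquiv.apply_symm_apply] at h1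
    exact h1
  have hαz1 : α z = z := by
    rcases (hz _).1 (hαz z ((hz z).2 (Or.inr rfl))) with h | h
    · exfalso
      apply hz1
      apply α.injective
      rw [h, map_one]
    · exact h
  -- the general end of the proof
  have hend : ∀ f : Q, f * f ≠ 1 → (α f = f ∨ α f = f * z) →
      ∃ f n : Q, orderOf f = 4 ∧ n * f * n⁻¹ = f⁻¹ ∧ (α f = f ∨ α f = f⁻¹) := by
    intro f hf hαf
    have h1 : f * f = z := by
      have h2 := sq_mem hQ hna f
      rw [hz, pow_two] at h2
      exact h2.resolve_left hf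
    have h2 : f * z = f⁻¹ := by
      rw [eq_inv_iff_mul_eq_one, mul_assoc, ← hzc, ← mul_assoc, h1, hzz]
    have h3 : ¬ ∀ n : Q, n * f = f * n := by
      intro hcon
      have h4 : f ∈ Subgroup.center Q := Subgroup.mem_center_iff.2 hcon
      rcases (hz f).1 h4 with h5 | h5
      · apply hf
        rw [h5, mul_one]
      · apply hf
        rw [h5, hzz]
    push Not at h3
    obtain ⟨n, hn⟩ := h3
    obtain ⟨c, hc, hc2⟩ := comm_mem hQ hna n f
    refine ⟨f, n, ?_, ?_, ?_⟩
    · have h4 : orderOf f = 2 ^ (1 + 1) := by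
        apply orderOf_eq_prime_pow
        · rw [pow_one, pow_two]
          exact hf
        · rw [show 2 ^ (1 + 1) = 2 * 2 from rfl, pow_mul, pow_two f, h1, pow_two, hzz]
      rw [h4]
      norm_num
    · rcases (hz c).1 hc with rfl | rfl
      · exfalso
        apply hn
        rw [mul_one, mul_inv_eq_iff_eq_mul] at hc2
        exact hc2
      · rw [hc2, h2]
    · rwa [h2] at hαf
  -- a fixed class
  let Z := Subgroup.center Q
  have hZ : Z.map (α : Q →* Q) = Z := by
    apply le_antisymm
    · rintro x ⟨y, hy, rfl⟩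
      exact hαz y hy
    · intro x hx
      rcases (hz x).1 hx with rfl | rfl
      · exact one_mem _
      · exact ⟨x, hx, hαz1⟩
  let β : (Q ⧸ Z) ≃* (Q ⧸ Z) := QuotientGroup.congr Z Z α hZ
  have hβ : ∀ x : Q, β (x : Q ⧸ Z) = ((α x : Q) : Q ⧸ Z) := fun x => rfl
  have hβpow : ∀ (m : ℕ) (x : Q), (((β : MulAut (Q ⧸ Z)) ^ m) (x : Q ⧸ Z)) = (((α ^ m) x : Q) : Q ⧸ Z) := by
    intro m
    induction m with
    | zero =>
      intro x
      rfl
    | succ m ih =>
      intro x
      rw [pow_succ, MulAut.mul_apply, pow_succ, MulAut.mul_apply,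
        show (β : MulAut (Q ⧸ Z)) (x : Q ⧸ Z) = ((α x : Q) : Q ⧸ Z) from rfl, ih]
  obtain ⟨j, hj⟩ := hα
  let σ : Equiv.Perm {c : Q ⧸ Z // c ≠ 1} :=
    { toFun := fun c => ⟨β c, fun h => c.2 (by
        apply β.injective
        rw [h, map_one])⟩
      invFun := fun c => ⟨β.symm c, fun h => c.2 (by
        apply β.symm.injective
        rw [h, map_one])⟩
      left_inv := fun c => Subtype.ext (β.symm_apply_apply _)
      right_inv := fun c => Subtype.ext (β.apply_symm_apply _) }
  have hσ : ∀ c, ((σ c : {c : Q ⧸ Z // c ≠ 1}) : Q ⧸ Z) = β c := fun c => rfl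
  have hσpow : ∀ (m : ℕ) (c : {c : Q ⧸ Z // c ≠ 1}),
      (((σ ^ m) c : {c : Q ⧸ Z // c ≠ 1}) : Q ⧸ Z) = ((β : MulAut (Q ⧸ Z)) ^ m) c := by
    intro m
    induction m with
    | zero =>
      intro c
      rfl
    | succ m ih =>
      intro c
      rw [pow_succ, Equiv.Perm.mul_apply, ih, hσ, pow_succ, MulAut.mul_apply]
  have hσ1 : σ ^ 2 ^ j = 1 := by
    apply Equiv.ext
    intro c
    apply Subtype.ext
    rw [hσpow]
    obtain ⟨x, hx⟩ := QuotientGroup.mk_surjective (c : Q ⧸ Z)
    rw [← hx, hβpow, hj, Equiv.Perm.one_apply, MulAut.one_apply, hx]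
  have hcardQ := card_quot hQ hna
  have : Fintype (Q ⧸ Z) := Fintype.ofFinite _
  have hcard : ¬ 2 ∣ Fintype.card {c : Q ⧸ Z // c ≠ 1} := by
    rw [Fintype.card_subtype_compl, Fintype.card_subtype_eq, ← Nat.card_eq_fintype_card, hcardQ]
    norm_num
  obtain ⟨⟨c, hc1⟩, hc2⟩ := Equiv.Perm.exists_fixed_point_of_prime hcard hσ1
  have hc3 : β c = c := congrArg Subtype.val hc2
  obtain ⟨x, rfl⟩ := QuotientGroup.mk_surjective c
  have hcls : ∀ a b : Q, (a : Q ⧸ Z) = b → b = a ∨ b = a * z := by
    intro a b hab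
    rw [QuotientGroup.eq] at hab
    rcases (hz _).1 hab with h | h
    · left
      exact (inv_mul_eq_one.1 h).symm
    · right
      rw [← h]
      group
  have hx1 : α x = x ∨ α x = x * z := hcls _ _ hc3.symm
  by_cases hxx : x * x = 1
  swap
  · exact hend x hxx hx1
  -- `x` is a noncentral involution
  have hxc : x ∉ Z := fun h => hc1 ((QuotientGroup.eq_one_iff x).2 h)
  obtain ⟨f, hf⟩ : ∃ f : Q, f * f ≠ 1 := by
    by_contra hcon
    push Not at hcon
    apply hna
    intro a b
    have ha := inv_eq_of_mul_eq_one_left (hcon a)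
    have hb := inv_eq_of_mul_eq_one_left (hcon b)
    have h3 := inv_eq_of_mul_eq_one_left (hcon (a * b))
    rw [mul_inv_rev, ha, hb] at h3
    exact h3.symm
  have hff : f * f = z := by
    have h2 := sq_mem hQ hna f
    rw [hz, pow_two] at h2
    exact h2.resolve_left hf
  -- squares of the elements of a class
  have hsq : ∀ a b : Q, (a : Q ⧸ Z) = b → b * b = a * a := by
    intro a b hab
    rcases hcls a b hab with rfl | rfl
    · rfl
    · rw [mul_assoc, ← mul_assoc z a z, ← hzc a, mul_assoc a z z, hzz, mul_one]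
  have hfc : (f : Q ⧸ Z) ≠ 1 := by
    intro h
    have h2 := hsq 1 f (by rw [h]; rfl)
    rw [mul_one] at h2
    exact hf h2
  have hfx : (f : Q ⧸ Z) ≠ (x : Q ⧸ Z) := by
    intro h
    have h2 := hsq _ _ h
    rw [hxx] at h2
    exact hf h2.symm
  -- the four classes
  have hfour : ∀ g : Q, (g : Q ⧸ Z) = 1 ∨ (g : Q ⧸ Z) = x ∨ (g : Q ⧸ Z) = f ∨ (g : Q ⧸ Z) = ((x * f : Q) : Q ⧸ Z) := by
    have h1 : ((x * f : Q) : Q ⧸ Z) ≠ 1 := by
      intro h
      have h2 : ((x * f : Q) : Q ⧸ Z) = ((x * x : Q) : Q ⧸ Z) := by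
        rw [h, hxx]
        rfl
      rw [QuotientGroup.mk_mul, QuotientGroup.mk_mul] at h2
      exact hfx (mul_left_cancel h2)
    have h2 : ((x * f : Q) : Q ⧸ Z) ≠ x := by
      intro h
      rw [QuotientGroup.mk_mul] at h
      exact hfc (mul_left_cancel (h.trans (mul_one _).symm))
    have h3 : ((x * f : Q) : Q ⧸ Z) ≠ f := by
      intro h
      rw [QuotientGroup.mk_mul] at h
      exact hc1 (mul_right_cancel (h.trans (one_mul _).symm))
    have h4 : ({1, (x : Q ⧸ Z), (f : Q ⧸ Z), ((x * f : Q) : Q ⧸ Z)} : Finset (Q ⧸ Z)) = Finset.univ := by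
      apply Finset.eq_univ_of_card
      rw [← Nat.card_eq_fintype_card, hcardQ, Finset.card_insert_of_notMem, Finset.card_insert_of_notMem,
        Finset.card_insert_of_notMem, Finset.card_singleton]
      · rw [Finset.mem_singleton]
        exact h3.symm
      · rw [Finset.mem_insert, Finset.mem_singleton]
        push Not
        exact ⟨hfx.symm, h2.symm⟩
      · rw [Finset.mem_insert, Finset.mem_insert, Finset.mem_singleton]
        push Not
        exact ⟨fun h => hc1 h.symm, fun h => hfc h.symm, fun h => h1 h.symm⟩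
    intro g
    have h5 : (g : Q ⧸ Z) ∈ ({1, (x : Q ⧸ Z), (f : Q ⧸ Z), ((x * f : Q) : Q ⧸ Z)} : Finset (Q ⧸ Z)) := by
      rw [h4]
      exact Finset.mem_univ _
    simpa using h5
  -- `x` and `f` do not commute
  have hxf : x * f ≠ f * x := by
    intro hcom
    apply hxc
    show x ∈ Subgroup.center Q
    rw [Subgroup.mem_center_iff]
    have hzcom : ∀ a b : Q, x * a = a * x → (a : Q ⧸ Z) = b → x * b = b * x := by
      intro a b ha hab
      rcases hcls a b hab with rfl | rfl
      · exact ha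
      · rw [← mul_assoc, ha, mul_assoc, mul_assoc, hzc x]
    intro g
    rcases hfour g with h | h | h | h
    · exact (hzcom 1 g (by rw [mul_one, one_mul]) (by rw [h]; rfl)).symm
    · exact (hzcom x g rfl h.symm).symm
    · exact (hzcom f g hcom h.symm).symm
    · refine (hzcom (x * f) g ?_ h.symm).symm
      rw [mul_assoc, ← hcom]
  have hfxz : x * f * x⁻¹ = f * z := by
    obtain ⟨c, hc, hc2⟩ := comm_mem hQ hna x f
    rcases (hz c).1 hc with rfl | rfl
    · exfalso
      apply hxf
      rw [mul_one, mul_inv_eq_iff_eq_mul] at hc2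
      exact hc2
    · exact hc2
  have hxfxf : x * f * (x * f) = 1 := by
    have h1 : x * f = f * z * x := by
      rw [← mul_inv_eq_iff_eq_mul]
      exact hfxz
    calc x * f * (x * f) = f * z * x * (x * f) := by rw [h1]
      _ = f * z * (x * x) * f := by group
      _ = f * z * f := by rw [hxx, mul_one]
      _ = f * f * z := by rw [mul_assoc, ← hzc f, mul_assoc]
      _ = 1 := by rw [hff, hzz]
  refine hend f hf ?_
  apply hcls
  have hαff : α f * α f = z := by rw [← map_mul, hff, hαz1]
  rcases hfour (α f) with h | h | h | h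
  · exfalso
    have h2 := hsq 1 (α f) (by rw [h]; rfl)
    rw [hαff, mul_one] at h2
    exact hz1 h2
  · exfalso
    have h2 := hsq x (α f) h.symm
    rw [hαff, hxx] at h2
    exact hz1 h2
  · exact h.symm
  · exfalso
    have h2 := hsq (x * f) (α f) h.symm
    rw [hαff, hxfxf] at h2
    exact hz1 h2

end Cfsg.Agent.H684.EB.Ord8
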