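import Cfsg.Agent.H684.EB.N4
import Cfsg.Agent.H684.EB.Ord8
import Cfsg.Agent.H104.EB.COne

/-!
# TEAM EB, criterion (N8) [T06]

`y` real of odd order, the Sylow 2-subgroups of `C(y)` nonabelian of order 8.

* `exists_n4`: the data of (N4);
* `n4_function`, `n8_function`: the class function with all its properties;
* `evenS_of_n4_oneBlock`, `evenS_of_n8`: the conclusion for `G = S`.
-/

set_option autoImplicit false
set_option linter.unusedSectionVars false

namespace Cfsg.Agent.H684.EB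

open Cfsg Cfsg.Agent.H610.EB
open scoped ComplexConjugate

universe u v

section
variable {S : Type u} [Group S]

open scoped Pointwise in
/-- The data of (N4) from a nonabelian Sylow 2-subgroup of order 8 of the centralizer. -/
theorem exists_n4_aux [Finite S] (y : S) (hodd : Odd (orderOf y)) (hreal : IsConj y y⁻¹)
    (C : Subgroup S) (hCm : ∀ x : S, x ∈ C ↔ Commute x y) (Q : Sylow 2 C) (P : Subgroup C)
    (hP : (Q : Subgroup C) = P) (hQ : Nat.card P = 8) (hna' : ¬ ∀ a b : P, a * b = b * a)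
    (z : S) (hz : orderOf z = 2) (hzQ : ∀ q ∈ P, Commute z (q : S)) (hzy : Commute z y) :
    ∃ f n m : S, N4 y f n m ∧ f ^ 2 = z := by
  classical
  have : Fact (Nat.Prime 2) := ⟨Nat.prime_two⟩
  have hPmem : ∀ x : C, x ∈ Q ↔ x ∈ P := fun x => by rw [← hP]; rfl
  -- an inverting element normalizing `Q`
  obtain ⟨g, hg⟩ := isConj_iff.1 hreal
  have hgC : ∀ x : S, x ∈ C → g * x * g⁻¹ ∈ C := by
    intro x hx
    rw [hCm] at hx ⊢
    have h1 : Commute (g * x * g⁻¹) (g * y * g⁻¹) := by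
      have := hx.map (MulAut.conj g)
      rwa [MulAut.conj_apply, MulAut.conj_apply] at this
    rw [hg] at h1
    simpa using h1.inv_right
  have hgi : g⁻¹ * y * g = y⁻¹ := by
    have h1 : y = (g * y * g⁻¹)⁻¹ := by rw [hg, inv_inv]
    nth_rewrite 1 [h1]
    group
  have hgC' : ∀ x : S, x ∈ C → g⁻¹ * x * g ∈ C := by
    intro x hx
    rw [hCm] at hx ⊢
    have h1 : Commute (g⁻¹ * x * g) (g⁻¹ * y * g) := by
      have := hx.map (MulAut.conj g⁻¹)
      rwa [MulAut.conj_apply, MulAut.conj_apply, inv_inv] at this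
    rw [hgi] at h1
    simpa using h1.inv_right
  let γ : MulAut C :=
    { toFun := fun x => ⟨g * x * g⁻¹, hgC x x.2⟩
      invFun := fun x => ⟨g⁻¹ * x * g, hgC' x x.2⟩
      left_inv := fun x => Subtype.ext (by
        show g⁻¹ * (g * x * g⁻¹) * g = x
        group)
      right_inv := fun x => Subtype.ext (by
        show g * (g⁻¹ * x * g) * g⁻¹ = x
        group)
      map_mul' := fun a b => Subtype.ext (by
        show g * (a * b) * g⁻¹ = g * a * g⁻¹ * (g * b * g⁻¹)
        group) }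
  have hγ : ∀ x : C, ((γ x : C) : S) = g * x * g⁻¹ := fun x => rfl
  obtain ⟨c, hc⟩ := MulAction.exists_smul_eq C (γ • Q) Q
  obtain ⟨m0, hm0⟩ : ∃ m0 : S, m0 = c * g := ⟨_, rfl⟩
  have hm0y : m0 * y * m0⁻¹ = y⁻¹ := by
    have h1 : (c : S) * y⁻¹ * (c : S)⁻¹ = y⁻¹ := by
      have h2 := ((hCm c).1 c.2).inv_right
      rw [h2.eq, mul_inv_cancel_right]
    calc m0 * y * m0⁻¹ = c * (g * y * g⁻¹) * (c : S)⁻¹ := by
          rw [hm0]
          group
      _ = y⁻¹ := by rw [hg, h1]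
  have hm0Q : ∀ q : C, q ∈ P → ∃ q' : C, q' ∈ P ∧ (q' : S) = m0 * q * m0⁻¹ := by
    intro q hq
    rw [← hPmem] at hq
    refine ⟨c * γ q * c⁻¹, ?_, ?_⟩
    · have h1 : γ q ∈ (γ • Q : Sylow 2 C) := by
        show γ q ∈ ((γ • Q : Sylow 2 C) : Subgroup C)
        rw [Sylow.pointwise_smul_def]
        exact Subgroup.smul_mem_pointwise_smul q γ (Q : Subgroup C) hq
      have h2 : c * γ q * c⁻¹ ∈ (c • (γ • Q) : Sylow 2 C) := by
        have h3 : c • (γ • Q) = MulAut.conj c • (γ • Q) := Sylow.smul_def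
        rw [h3]
        show c * γ q * c⁻¹ ∈ ((MulAut.conj c • (γ • Q) : Sylow 2 C) : Subgroup C)
        rw [Sylow.pointwise_smul_def]
        have h4 := Subgroup.smul_mem_pointwise_smul (γ q) (MulAut.conj c) ((γ • Q : Sylow 2 C) : Subgroup C) h1
        rwa [MulAut.smul_def, MulAut.conj_apply] at h4
      rw [hc] at h2
      exact (hPmem _).1 h2
    · show (c : S) * (g * q * g⁻¹) * (c : S)⁻¹ = _
      rw [hm0]
      group
  -- the 2-part
  obtain ⟨a, j, hj, haj⟩ := Nat.exists_eq_two_pow_mul_odd (orderOf_pos m0).ne'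
  obtain ⟨m, hm⟩ : ∃ m : S, m = m0 ^ j := ⟨_, rfl⟩
  have hmy : m * y * m⁻¹ = y⁻¹ := by
    have h1 : ∀ i : ℕ, m0 ^ (2 * i) * y * (m0 ^ (2 * i))⁻¹ = y := by
      intro i
      induction i with
      | zero => simp
      | succ i ih =>
        have h2 : m0 ^ (2 * (i + 1)) = m0 * m0 * m0 ^ (2 * i) := by
          rw [show 2 * (i + 1) = 2 * i + 1 + 1 by ring, pow_succ', pow_succ']
          exact (mul_assoc _ _ _).symm
        rw [h2]
        calc m0 * m0 * m0 ^ (2 * i) * y * (m0 * m0 * m0 ^ (2 * i))⁻¹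
            = m0 * (m0 * (m0 ^ (2 * i) * y * (m0 ^ (2 * i))⁻¹) * m0⁻¹) * m0⁻¹ := by group
          _ = m0 * y⁻¹ * m0⁻¹ := by rw [ih, hm0y]
          _ = (m0 * y * m0⁻¹)⁻¹ := by group
          _ = y := by rw [hm0y, inv_inv]
    obtain ⟨i, rfl⟩ := hj
    rw [hm, pow_succ']
    calc m0 * m0 ^ (2 * i) * y * (m0 * m0 ^ (2 * i))⁻¹
        = m0 * (m0 ^ (2 * i) * y * (m0 ^ (2 * i))⁻¹) * m0⁻¹ := by group
      _ = y⁻¹ := by rw [h1, hm0y]
  have hm2 : m ^ 2 ^ a = 1 := by
    rw [hm, ← pow_mul, mul_comm, ← haj, pow_orderOf_eq_one]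
  have hmQ : ∀ q : C, q ∈ P → ∃ q' : C, q' ∈ P ∧ (q' : S) = m * q * m⁻¹ := by
    have h1 : ∀ i : ℕ, ∀ q : C, q ∈ P → ∃ q' : C, q' ∈ P ∧ (q' : S) = m0 ^ i * q * (m0 ^ i)⁻¹ := by
      intro i
      induction i with
      | zero => exact fun q hq => ⟨q, hq, by simp⟩
      | succ i ih =>
        intro q hq
        obtain ⟨q1, hq1, e1⟩ := ih q hq
        obtain ⟨q2, hq2, e2⟩ := hm0Q q1 hq1
        refine ⟨q2, hq2, ?_⟩
        rw [e2, e1, pow_succ']
        group
    rw [hm]
    exact h1 j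
  -- the automorphism of `Q`
  choose φ hφ1 hφ2 using hmQ
  have hinj : ∀ (a b : C) (ha : a ∈ P) (hb : b ∈ P), φ a ha = φ b hb → a = b := by
    intro a b ha hb h
    have h1 : m * (a : S) * m⁻¹ = m * (b : S) * m⁻¹ := by rw [← hφ2 a ha, ← hφ2 b hb, h]
    exact Subtype.ext (mul_left_cancel (mul_right_cancel h1))
  let α0 : P →* P :=
    { toFun := fun q => ⟨φ q q.2, hφ1 q q.2⟩
      map_one' := Subtype.ext (Subtype.ext (by
        show ((φ ((1 : P) : C) (1 : P).2 : C) : S) = 1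
        rw [hφ2]
        show m * 1 * m⁻¹ = 1
        group))
      map_mul' := fun a b => Subtype.ext (Subtype.ext (by
        show ((φ ((a * b : P) : C) (a * b : P).2 : C) : S) = (φ a a.2 : C) * (φ b b.2 : C)
        rw [hφ2, hφ2, hφ2]
        show m * (((a : C) : S) * ((b : C) : S)) * m⁻¹ = _
        group)) }
  have hα0 : ∀ q : P, (((α0 q : P) : C) : S) = m * ((q : C) : S) * m⁻¹ := fun q => hφ2 q q.2
  have hα0i : Function.Injective α0 := by
    intro a b h
    apply Subtype.ext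
    exact hinj a b a.2 b.2 (congrArg Subtype.val h)
  let α : MulAut P := MulEquiv.ofBijective α0 (Finite.injective_iff_bijective.1 hα0i)
  have hα : ∀ q : P, (((α q : P) : C) : S) = m * ((q : C) : S) * m⁻¹ := hα0
  have hαpow : ∀ (i : ℕ) (q : P), ((((α ^ i) q : P) : C) : S) = m ^ i * ((q : C) : S) * (m ^ i)⁻¹ := by
    intro i
    induction i with
    | zero =>
      intro q
      simp
    | succ i ih =>
      intro q
      rw [pow_succ, MulAut.mul_apply, ih, hα, pow_succ]
      group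
  obtain ⟨f, n, hf4, hnf, hαf⟩ := Ord8.exists_four hQ hna' α ⟨a, by
    apply MulEquiv.ext
    intro q
    apply Subtype.ext
    apply Subtype.ext
    rw [hαpow, hm2, MulAut.one_apply]
    group⟩
  have hfS : orderOf ((f : C) : S) = 4 := by
    rw [Subgroup.orderOf_coe, Subgroup.orderOf_coe, hf4]
  have hnfS : ((n : C) : S) * ((f : C) : S) * ((n : C) : S)⁻¹ = ((f : C) : S)⁻¹ :=
    congrArg (fun x : P => ((x : C) : S)) hnf
  have hfy : Commute y ((f : C) : S) := ((hCm _).1 (f : C).2).symm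
  -- `z` and `f ^ 2`
  obtain ⟨z0, hz01, hz0z0, hz0⟩ := Ord8.exists_z hQ hna'
  have hzC : z ∈ C := (hCm z).2 hzy
  have hzQm : (⟨z, hzC⟩ : C) ∈ P := by
    -- `Q ⊔ ⟨z⟩` is a 2-group
    have h1 : ((Q : Subgroup C) ⊔ Subgroup.zpowers (⟨z, hzC⟩ : C)) = Q := by
      apply Q.3
      · have h2 : Subgroup.zpowers (⟨z, hzC⟩ : C) ≤ Subgroup.centralizer ((Q : Subgroup C) : Set C) := by
          rw [Subgroup.zpowers_le, Subgroup.mem_centralizer_iff]
          intro q hq
          apply Subtype.ext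
          exact (hzQ q ((hPmem q).1 hq)).eq.symm
        refine IsPGroup.to_sup_of_normal_left' Q.2 ?_ (h2.trans (Subgroup.centralizer_le_normalizer _))
        apply IsPGroup.of_card (n := 1)
        rw [Nat.card_zpowers, ← Subgroup.orderOf_coe, pow_one]
        exact hz
      · exact le_sup_left
    rw [← hP, ← h1]
    exact (le_sup_right : _ ≤ (Q : Subgroup C) ⊔ Subgroup.zpowers (⟨z, hzC⟩ : C)) (Subgroup.mem_zpowers _)
  have hzz0 : (⟨⟨z, hzC⟩, hzQm⟩ : P) = z0 := by
    have h1 : (⟨⟨z, hzC⟩, hzQm⟩ : P) ∈ Subgroup.center P := by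
      rw [Subgroup.mem_center_iff]
      intro q
      apply Subtype.ext
      apply Subtype.ext
      exact (hzQ q q.2).eq.symm
    rcases (hz0 _).1 h1 with h2 | h2
    · exfalso
      have h3 : z = 1 := congrArg (fun x : P => ((x : C) : S)) h2
      rw [h3, orderOf_one] at hz
      norm_num at hz
    · exact h2
  have hf2 : ((f : C) : S) ^ 2 = z := by
    have h1 := Ord8.sq_mem hQ hna' f
    rcases (hz0 _).1 h1 with h2 | h2
    · exfalso
      have h3 := orderOf_dvd_of_pow_eq_one h2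
      rw [hf4] at h3
      exact absurd h3 (by decide)
    · rw [← hzz0] at h2
      have h3 := congrArg (fun x : P => ((x : C) : S)) h2
      simpa using h3
  refine ⟨f, n, m, ⟨hodd, hfS, hfy, (hCm _).1 (n : C).2, hnfS, hmy, ?_, ?_⟩, hf2⟩
  · rcases hαf with h1 | h1
    · left
      rw [← hα, h1]
    · right
      rw [← hα, h1]
      rfl
  -- the 2-part of the centralizer of `y f`
  obtain ⟨H, hH⟩ : ∃ H : Subgroup S, H = Subgroup.centralizer ({y * ((f : C) : S)} : Set S) := ⟨_, rfl⟩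
  rw [← hH]
  have hHm : ∀ g, g ∈ H ↔ Commute g y ∧ Commute g ((f : C) : S) := by
    intro g
    -- as in N4
    rw [hH, Subgroup.mem_centralizer_singleton_iff]
    constructor
    · intro h1
      have hc : Commute g (y * ((f : C) : S)) := h1
      obtain ⟨a, ha0, ha1⟩ := Nat.chineseRemainder
        (show Nat.Coprime (orderOf y) 4 from (Nat.coprime_two_right.2 hodd).pow_right 2) 1 0
      obtain ⟨b, hb0, hb1⟩ := Nat.chineseRemainder
        (show Nat.Coprime (orderOf y) 4 from (Nat.coprime_two_right.2 hodd).pow_right 2) 0 1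
      have h2 : (y * ((f : C) : S)) ^ a = y := by
        rw [hfy.mul_pow]
        have h3 : y ^ a = y := by
          nth_rewrite 2 [← pow_one y]
          rw [pow_eq_pow_iff_modEq]
          exact ha0
        have h4 : ((f : C) : S) ^ a = 1 := by
          rw [← pow_zero ((f : C) : S), pow_eq_pow_iff_modEq, hfS]
          exact ha1
        rw [h3, h4, mul_one]
      have h2' : (y * ((f : C) : S)) ^ b = ((f : C) : S) := by
        rw [hfy.mul_pow]
        have h3 : ((f : C) : S) ^ b = ((f : C) : S) := by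
          nth_rewrite 2 [← pow_one ((f : C) : S)]
          rw [pow_eq_pow_iff_modEq, hfS]
          exact hb1
        have h4 : y ^ b = 1 := by
          rw [← pow_zero y, pow_eq_pow_iff_modEq]
          exact hb0
        rw [h3, h4, one_mul]
      constructor
      · have h5 := hc.pow_right a
        rwa [h2] at h5
      · have h5 := hc.pow_right b
        rwa [h2'] at h5
    · rintro ⟨h1, h2⟩
      exact (h1.mul_right h2).eq
  have hHC : H ≤ C := fun g hg => (hCm g).2 ((hHm g).1 hg).1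
  have hfH : ((f : C) : S) ∈ H := (hHm _).2 ⟨hfy.symm, Commute.refl _⟩
  have hH0 : Nat.card H ≠ 0 := Nat.card_pos.ne'
  have h4 : 2 ^ 2 ∣ Nat.card H := by
    have h1 : orderOf (⟨_, hfH⟩ : H) ∣ Nat.card H := orderOf_dvd_natCard _
    rw [← Subgroup.orderOf_coe] at h1
    have h2 : orderOf ((f : C) : S) ∣ Nat.card H := h1
    rw [hfS] at h2
    exact h2
  have h8 : ¬ 2 ^ 3 ∣ Nat.card H := by
    intro hd
    -- a Sylow 2-subgroup of `H` containing `f`
    have hfp : IsPGroup 2 (Subgroup.zpowers (⟨_, hfH⟩ : H)) := by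
      apply IsPGroup.of_card (n := 2)
      rw [Nat.card_zpowers, ← Subgroup.orderOf_coe]
      show orderOf ((f : C) : S) = 2 ^ 2
      rw [hfS]
      norm_num
    obtain ⟨T, hT⟩ := hfp.exists_le_sylow
    have hfT : (⟨_, hfH⟩ : H) ∈ (T : Subgroup H) := hT (Subgroup.mem_zpowers _)
    have hTcard : 8 ∣ Nat.card (T : Subgroup H) := by
      have h1 := T.card_eq_multiplicity
      rw [h1]
      exact pow_dvd_pow 2 ((Nat.Prime.pow_dvd_iff_le_factorization Nat.prime_two hH0).1 hd)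
    have hT'card : Nat.card ((T : Subgroup H).map (Subgroup.inclusion hHC)) = Nat.card (T : Subgroup H) :=
      Nat.card_congr ((T : Subgroup H).equivMapOfInjective _ (Subgroup.inclusion_injective hHC)).symm.toEquiv
    have hT'p : IsPGroup 2 ((T : Subgroup H).map (Subgroup.inclusion hHC)) := T.2.map _
    obtain ⟨R, hR⟩ := hT'p.exists_le_sylow
    obtain ⟨d, hd2⟩ := MulAction.exists_smul_eq C R Q
    have hRcard : Nat.card (R : Subgroup C) = 8 := by
      rw [← hQ, ← hP, R.card_eq_multiplicity, Q.card_eq_multiplicity]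
    have hT'R : (T : Subgroup H).map (Subgroup.inclusion hHC) = R := by
      apply Subgroup.eq_of_le_of_card_ge hR
      rw [hT'card, hRcard]
      exact Nat.le_of_dvd Nat.card_pos hTcard
    -- `R ≃ Q`
    have hdR : (MulAut.conj d • (R : Subgroup C) : Subgroup C) = P := by
      rw [← hP, ← hd2]
      rfl
    have eRQ : (R : Subgroup C) ≃* P :=
      (Subgroup.equivSMul (MulAut.conj d) (R : Subgroup C)).trans (MulEquiv.subgroupCongr hdR)
    have hnaR : ¬ ∀ a b : (R : Subgroup C), a * b = b * a := by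
      intro h1
      apply hna'
      intro a b
      have h2 := h1 (eRQ.symm a) (eRQ.symm b)
      have h3 := congrArg eRQ h2
      rw [map_mul, map_mul, MulEquiv.apply_symm_apply, MulEquiv.apply_symm_apply] at h3
      exact h3
    obtain ⟨w, hw1, hww, hw⟩ := Ord8.exists_z hRcard hnaR
    have hfR : (f : C) ∈ (R : Subgroup C) := by
      rw [← hT'R]
      exact ⟨⟨_, hfH⟩, hfT, rfl⟩
    have hfc : (⟨(f : C), hfR⟩ : (R : Subgroup C)) ∈ Subgroup.center (R : Subgroup C) := by
      rw [Subgroup.mem_center_iff]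
      rintro ⟨x, hx⟩
      have hx' : x ∈ (T : Subgroup H).map (Subgroup.inclusion hHC) := by
        rw [hT'R]
        exact hx
      obtain ⟨x0, hx0, rfl⟩ := hx'
      apply Subtype.ext
      apply Subtype.ext
      exact ((hHm x0).1 x0.2).2.eq
    have h9 : (⟨(f : C), hfR⟩ : (R : Subgroup C)) * ⟨(f : C), hfR⟩ = 1 := by
      rcases (hw _).1 hfc with h | h
      · rw [h, mul_one]
      · rw [h, hww]
    have h10 : ((f : C) : S) * ((f : C) : S) = 1 :=
      congrArg (fun x : (R : Subgroup C) => ((x : C) : S)) h9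
    have h11 := orderOf_dvd_of_pow_eq_one (show ((f : C) : S) ^ 2 = 1 by rw [pow_two, h10])
    rw [hfS] at h11
    exact absurd h11 (by decide)
  apply le_antisymm
  · by_contra hcon
    exact h8 ((Nat.Prime.pow_dvd_iff_le_factorization Nat.prime_two hH0).2 (by omega))
  · exact (Nat.Prime.pow_dvd_iff_le_factorization Nat.prime_two hH0).1 h4

/-- The data of (N4) from a nonabelian Sylow 2-subgroup of order 8 of the centralizer. -/
theorem exists_n4 [Finite S] (y : S) (hodd : Odd (orderOf y)) (hreal : IsConj y y⁻¹)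
    (Q : Sylow 2 (Subgroup.centralizer ({y} : Set S))) (hQ : Nat.card Q = 8) (hna : ¬ IsMulCommutative Q)
    (z : S) (hz : orderOf z = 2) (hzQ : ∀ q ∈ Q, Commute z (q : S)) (hzy : Commute z y) :
    ∃ f n m : S, N4 y f n m ∧ f ^ 2 = z :=
  exists_n4_aux y hodd hreal _ (fun x => by
    rw [Subgroup.mem_centralizer_singleton_iff]
    rfl) Q (Q : Subgroup (Subgroup.centralizer ({y} : Set S))) rfl hQ (fun h => hna ⟨⟨h⟩⟩) z hz hzQ hzy

end

section
variable {S : Type u} [Group S] [Fintype S]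

/-- Vanishing outside the principal block from `OneBlock`. -/
theorem N4.vanish {y f n m : S} (h : N4 y f n m) {M : Ideal AlgInt} (hM : IsPModular 2 M)
    (h2 : OneBlock M (Subgroup.centralizer ({f ^ 2} : Set S)))
    (h1 : OneBlock M (Subgroup.centralizer ({f} : Set S))) (χ : IrrCharacter S)
    (hχ : χ ∉ principalBlock M S) : (χ : S → ℂ) (y * f ^ 2) = 0 ∧ (χ : S → ℂ) (y * f) = 0 := by
  have hreg : IsPRegular 2 y := fun h0 => (Nat.not_even_iff_odd.2 h.odd) (even_iff_two_dvd.2 h0)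
  have hf2 : orderOf (f ^ 2) = 2 := by
    rw [orderOf_pow' f (by norm_num), h.four]
    norm_num
  constructor
  · rw [h.comm2.eq]
    exact H104.EB.COne.vanish hM χ hχ (f ^ 2) ⟨1, by rw [hf2, pow_one]⟩ h2 y hreg h.comm2.symm
  · rw [h.comm.eq]
    exact H104.EB.COne.vanish hM χ hχ f ⟨2, by rw [h.four]; norm_num⟩ h1 y hreg h.comm.symm

/-- **(N4)** with one-block centralizers -/
theorem evenS_of_n4_oneBlock {y f n m : S} (h : N4 y f n m)
    (h2 : ∀ M : Ideal AlgInt, IsPModular 2 M → OneBlock M (Subgroup.centralizer ({f ^ 2} : Set S)))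
    (h1 : ∀ M : Ideal AlgInt, IsPModular 2 M → OneBlock M (Subgroup.centralizer ({f} : Set S))) :
    EvenS S :=
  evenS_of_n4' h fun M hM χ hχ => h.vanish hM (h2 M hM) (h1 M hM) χ hχ

/-- **(N8) [T06]** -/
theorem evenS_of_n8 (y : S) (hodd : Odd (orderOf y)) (hreal : IsConj y y⁻¹)
    (Q : Sylow 2 (Subgroup.centralizer ({y} : Set S))) (hQ : Nat.card Q = 8) (hna : ¬ IsMulCommutative Q)
    (z : S) (hz : orderOf z = 2) (hzQ : ∀ q ∈ Q, Commute z (q : S)) (hzy : Commute z y)
    (hC : ∀ M : Ideal AlgInt, IsPModular 2 M → ∀ x : S, (∃ j : ℕ, orderOf x = 2 ^ j) → z ∈ Subgroup.zpowers x →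
      OneBlock M (Subgroup.centralizer ({x} : Set S))) : EvenS S := by
  obtain ⟨f, n, m, h, hf⟩ := exists_n4 y hodd hreal Q hQ hna z hz hzQ hzy
  refine evenS_of_n4_oneBlock h (fun M hM => ?_) (fun M hM => ?_)
  · rw [hf]
    exact hC M hM z ⟨1, by rw [hz, pow_one]⟩ (Subgroup.mem_zpowers z)
  · refine hC M hM f ⟨2, by rw [h.four]; norm_num⟩ ?_
    rw [← hf]
    exact Subgroup.pow_mem _ (Subgroup.mem_zpowers f) 2

/-- The function of (N4) with all its properties. -/
theorem n4_function {k : ℕ} (hk : IsK S k) {M : Ideal AlgInt} (hM : IsPModular 2 M) {y f n m : S}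
    (h : N4 y f n m)
    (hB : ∀ χ : IrrCharacter S, χ ∉ principalBlock M S →
      MemLocalIdeal M (((χ : S → ℂ) (y * f ^ 2) + (χ : S → ℂ) (y * f)) / 2)) :
    ∃ Ψ : S → ℂ, IsClassFunction S Ψ ∧
      (∀ χ : IrrCharacter S, MemLocalRing M (classInner Ψ (χ : S → ℂ))) ∧
      (∀ χ : IrrCharacter S, χ ∉ principalBlock M S → MemLocalIdeal M (classInner Ψ (χ : S → ℂ))) ∧
      (∀ g, Ψ (g ^ k) = Ψ g) ∧
      (∀ g, Ψ g ≠ 0 → ∃ q, IsConj g (y * q) ∧ Commute y q ∧ ∃ j : ℕ, orderOf q = 2 ^ j) ∧ Ψ 1 = 0 ∧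
      (∀ χ : IrrCharacter S, conj (classInner Ψ (χ : S → ℂ)) = classInner Ψ (χ : S → ℂ)) ∧
      ¬ MemLocalIdeal M (classInner Ψ Ψ) := by
  have hprime : M.IsPrime := Blocks.Local.isPrime_of_isPModular hM
  have hf2 : orderOf (f ^ 2) = 2 := by
    rw [orderOf_pow' f (by norm_num), h.four]
    norm_num
  refine ⟨n4Psi y f, n4Psi_cf y f, fun χ => ?_, fun χ hχ => ?_, n4Psi_pow h hk, fun g hg => ?_,
    n4Psi_one h, fun χ => H612.Base.conj_classInner (n4Psi_inv h) (n4Psi_real y f) χ, ?_⟩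
  · rw [n4_classInner h]
    exact Blocks.Local.memLocalRing_neg (Blocks.Local.memLocalRing_of_isIntegral
      (h.isIntegral (Characters.Core.isIrr_isCharacter χ.2)))
  · rw [n4_classInner h, Blocks.Local.memLocalIdeal_neg_iff]
    exact hB χ hχ
  · by_contra hcon
    push Not at hcon
    apply hg
    have key : ∀ q : S, Commute y q → (∃ j : ℕ, orderOf q = 2 ^ j) → ∀ t : S, t⁻¹ * g * t ≠ y * q := by
      rintro q hq ⟨j, hj⟩ t ht
      exact hcon q (isConj_iff.2 ⟨t⁻¹, by rw [inv_inv]; exact ht⟩) hq j hj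
    exact n4Psi_zero (key _ h.comm2 ⟨1, by rw [hf2, pow_one]⟩) (key _ h.comm ⟨2, by rw [h.four]; norm_num⟩)
      (key _ h.comm.inv_right ⟨2, by rw [orderOf_inv, h.four]; norm_num⟩)
  · obtain ⟨N, hN, hnorm⟩ := n4_norm h
    rw [hnorm, Blocks.Local.memLocalIdeal_natCast_iff hM, ← even_iff_two_dvd, Nat.not_even_iff_odd]
    exact hN

/-- The function of (N8) with all its properties. -/
theorem n8_function {k : ℕ} (hk : IsK S k) {M : Ideal AlgInt} (hM : IsPModular 2 M)
    (y : S) (hodd : Odd (orderOf y)) (hreal : IsConj y y⁻¹)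
    (Q : Sylow 2 (Subgroup.centralizer ({y} : Set S))) (hQ : Nat.card Q = 8) (hna : ¬ IsMulCommutative Q)
    (z : S) (hz : orderOf z = 2) (hzQ : ∀ q ∈ Q, Commute z (q : S)) (hzy : Commute z y)
    (hC : ∀ x : S, (∃ j : ℕ, orderOf x = 2 ^ j) → z ∈ Subgroup.zpowers x →
      OneBlock M (Subgroup.centralizer ({x} : Set S))) :
    ∃ Ψ : S → ℂ, IsClassFunction S Ψ ∧
      (∀ χ : IrrCharacter S, MemLocalRing M (classInner Ψ (χ : S → ℂ))) ∧
      (∀ χ : IrrCharacter S, χ ∉ principalBlock M S → MemLocalIdeal M (classInner Ψ (χ : S → ℂ))) ∧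
      (∀ g, Ψ (g ^ k) = Ψ g) ∧
      (∀ g, Ψ g ≠ 0 → ∃ q, IsConj g (y * q) ∧ Commute y q ∧ ∃ j : ℕ, orderOf q = 2 ^ j) ∧ Ψ 1 = 0 ∧
      (∀ χ : IrrCharacter S, conj (classInner Ψ (χ : S → ℂ)) = classInner Ψ (χ : S → ℂ)) ∧
      ¬ MemLocalIdeal M (classInner Ψ Ψ) := by
  have hprime : M.IsPrime := Blocks.Local.isPrime_of_isPModular hM
  obtain ⟨f, n, m, h, hf⟩ := exists_n4 y hodd hreal Q hQ hna z hz hzQ hzy
  refine n4_function hk hM h fun χ hχ => ?_
  have h0 := h.vanish hM (by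
    rw [hf]
    exact hC z ⟨1, by rw [hz, pow_one]⟩ (Subgroup.mem_zpowers z)) (by
    refine hC f ⟨2, by rw [h.four]; norm_num⟩ ?_
    rw [← hf]
    exact Subgroup.pow_mem _ (Subgroup.mem_zpowers f) 2) χ hχ
  rw [h0.1, h0.2]
  have e : ((0 : ℂ) + 0) / 2 = 0 := by ring
  rw [e]
  exact Blocks.Local.memLocalIdeal_zero

end

end Cfsg.Agent.H684.EB
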