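import Cfsg.Agent.H684.EB.EvenS
import Cfsg.Agent.Blocks.AvgIntegral

/-!
# Averages of class functions and twisted averages of characters

* `isIntegral_half`: `(χ(y f²) + χ(y f)) / 2` is an algebraic integer if `f ^ 4 = 1`, `y` commutes with `f` and
  `χ(y f³) = χ(y f)`.
* `avg F`, `classInner_avg`: the class function `g ↦ ∑ t, F (t⁻¹ g t)` and its coefficients.
-/

set_option autoImplicit false

namespace Cfsg.Agent.H684.EB

open Cfsg Cfsg.Agent.H610.EB
open scoped ComplexConjugate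

universe u v

theorem isIntegral_tw {G : Type u} [Group G] {V : Type v} [AddCommGroup V] [Module ℂ V]
    [FiniteDimensional ℂ V] (ρ : Representation ℂ G V) {y f : G} (hy : IsOfFinOrder y)
    (hc : Commute y f) (hf : f ^ 4 = 1) {ω : ℂ} (hω : ω ^ 4 = 1) :
    IsIntegral ℤ ((4 : ℂ)⁻¹ * (ρ.character y + ω ^ 3 * ρ.character (y * f) +
      ω ^ 2 * ρ.character (y * f ^ 2) + ω * ρ.character (y * f ^ 3))) := by
  set a : Module.End ℂ V := ρ f with ha
  have ha4 : a ^ 4 = 1 := by rw [ha, ← map_pow, hf, map_one]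
  set π : Module.End ℂ V := (4 : ℂ)⁻¹ • (1 + ω ^ 3 • a + ω ^ 2 • a ^ 2 + ω • a ^ 3) with hπ
  have h1 : π * a = ω • π := by
    rw [hπ, smul_mul_assoc, smul_comm ω (4 : ℂ)⁻¹]
    congr 1
    rw [add_mul, add_mul, add_mul, smul_mul_assoc, smul_mul_assoc, smul_mul_assoc, one_mul, ← pow_succ,
      ← pow_succ, ha4, smul_add, smul_add, smul_add, smul_smul, smul_smul, smul_smul, ← pow_two]
    have e1 : ω * ω ^ 3 = 1 := by rw [← hω]; ring
    have e2 : ω * ω ^ 2 = ω ^ 3 := by ring
    have e3 : ω * ω = ω ^ 2 := by ring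
    rw [e1, e2, e3, one_smul]
    norm_num
    abel
  have h2 : ∀ j : ℕ, π * a ^ j = ω ^ j • π := by
    intro j
    induction j with
    | zero => simp
    | succ j ih =>
      rw [pow_succ, ← mul_assoc, ih, smul_mul_assoc, h1, smul_smul, ← pow_succ]
  have hidem : π * π = π := by
    have h3 := h2 1
    rw [pow_one, pow_one] at h3
    have h5 : π * π = (4 : ℂ)⁻¹ • (π + ω ^ 3 • (π * a) + ω ^ 2 • (π * a ^ 2) + ω • (π * a ^ 3)) := by
      nth_rewrite 2 [hπ]
      rw [mul_smul_comm, mul_add, mul_add, mul_add, mul_one, mul_smul_comm, mul_smul_comm,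
        mul_smul_comm]
    rw [h5, h3, h2, h2, smul_smul (ω ^ 3) ω π, smul_smul (ω ^ 2) (ω ^ 2) π, smul_smul ω (ω ^ 3) π]
    have e1 : ω ^ 3 * ω = 1 := by rw [← hω]; ring
    have e2 : ω ^ 2 * ω ^ 2 = 1 := by rw [← hω]; ring
    have e3 : ω * ω ^ 3 = 1 := by rw [← hω]; ring
    rw [e1, e2, e3, one_smul]
    have h4 : π + π + π + π = (4 : ℂ) • π := by
      rw [show (4 : ℂ) = 1 + 1 + 1 + 1 by norm_num, add_smul, add_smul, add_smul, one_smul]
    rw [h4, smul_smul, inv_mul_cancel₀ (by norm_num), one_smul]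
  have hcom : Commute (ρ y) π := by
    have h3 : Commute (ρ y) a := by
      rw [ha, Commute, SemiconjBy, ← map_mul, ← map_mul, hc.eq]
    rw [hπ]
    refine Commute.smul_right ?_ _
    refine Commute.add_right (Commute.add_right (Commute.add_right (Commute.one_right _) ?_) ?_) ?_
    · exact Commute.smul_right h3 _
    · exact Commute.smul_right (h3.pow_right 2) _
    · exact Commute.smul_right (h3.pow_right 3) _
  have hpow : ∀ k : ℕ, k ≠ 0 → π ^ k = π := by
    intro k hk
    induction k with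
    | zero => exact absurd rfl hk
    | succ k ih =>
      by_cases h0 : k = 0
      · subst h0; simp
      · rw [pow_succ, ih h0, hidem]
  have hT : (ρ y * π) ^ (orderOf y + 1) = ρ y * π := by
    rw [hcom.mul_pow, hpow _ (Nat.succ_ne_zero _), ← map_pow, pow_succ, pow_orderOf_eq_one, one_mul]
  have hint := Blocks.AvgIntegral.isIntegral_trace_of_pow (hy.orderOf_pos.ne') hT
  have heq : LinearMap.trace ℂ V (ρ y * π) = (4 : ℂ)⁻¹ * (ρ.character y + ω ^ 3 * ρ.character (y * f) +
      ω ^ 2 * ρ.character (y * f ^ 2) + ω * ρ.character (y * f ^ 3)) := by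
    rw [hπ, mul_smul_comm, map_smul, smul_eq_mul, mul_add, mul_add, mul_add, map_add, map_add, map_add,
      mul_smul_comm, mul_smul_comm, mul_smul_comm, map_smul, map_smul, map_smul, mul_one, ha, ← map_pow,
      ← map_pow, ← map_mul, ← map_mul, ← map_mul]
    rfl
  rwa [heq] at hint

/-- The half sum is an algebraic integer. -/
theorem isIntegral_half {G : Type u} [Group G] [Finite G] {χ : G → ℂ} (hχ : IsCharacter G χ)
    {y f : G} (hc : Commute y f) (hf : f ^ 4 = 1) (h3 : χ (y * f ^ 3) = χ (y * f)) :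
    IsIntegral ℤ ((χ (y * f ^ 2) + χ (y * f)) / 2) := by
  obtain ⟨n, ρ, rfl⟩ := hχ
  have hy := isOfFinOrder_of_finite y
  have h1 := isIntegral_tw ρ hy hc hf (ω := 1) (by norm_num)
  have hI : Complex.I ^ 4 = 1 := Complex.I_pow_four
  have h2 := isIntegral_tw ρ hy hc hf (ω := Complex.I) hI
  have h4 := h1.sub h2
  rw [h3] at h4
  have hI2 : Complex.I ^ 2 = -1 := Complex.I_sq
  have hI3 : Complex.I ^ 3 = - Complex.I := by
    rw [pow_succ, hI2]
    ring
  rw [hI2, hI3] at h4
  have h5 : (ρ.character (y * f ^ 2) + ρ.character (y * f)) / 2 =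
      (4 : ℂ)⁻¹ * (ρ.character y + 1 ^ 3 * ρ.character (y * f) +
      1 ^ 2 * ρ.character (y * f ^ 2) + 1 * ρ.character (y * f)) -
      (4 : ℂ)⁻¹ * (ρ.character y + -Complex.I * ρ.character (y * f) +
      -1 * ρ.character (y * f ^ 2) + Complex.I * ρ.character (y * f)) := by
    ring
  rw [h5]
  exact h4

section avg
variable {G : Type u} [Group G] [Fintype G]

/-- sum over the conjugates -/
noncomputable def avg (F : G → ℂ) : G → ℂ := fun g => ∑ t : G, F (t⁻¹ * g * t)

theorem avg_def (F : G → ℂ) (g : G) : avg F g = ∑ t : G, F (t⁻¹ * g * t) := rfl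

theorem isClassFunction_avg (F : G → ℂ) : IsClassFunction G (avg F) := by
  intro g h
  rw [avg_def, avg_def]
  refine Fintype.sum_equiv (Equiv.mulLeft h⁻¹) _ _ fun t => ?_
  rw [Equiv.coe_mulLeft]
  congr 1
  group

theorem classInner_avg (F : G → ℂ) {χ : G → ℂ} (hχ : IsClassFunction G χ) :
    classInner (avg F) χ = ∑ h : G, F h * conj (χ h) := by
  rw [Characters.Core.classInner_def]
  have h1 : ∑ g : G, avg F g * conj (χ g) = ∑ t : G, ∑ h : G, F h * conj (χ h) := by
    simp only [avg_def, Finset.sum_mul]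
    rw [Finset.sum_comm]
    refine Finset.sum_congr rfl fun t _ => ?_
    refine Fintype.sum_equiv (MulAut.conj t⁻¹).toEquiv _ _ fun g => ?_
    have h2 : (MulAut.conj t⁻¹).toEquiv g = t⁻¹ * g * t := by
      show MulAut.conj t⁻¹ g = _
      rw [MulAut.conj_apply, inv_inv]
    rw [h2]
    congr 2
    have h3 := hχ g t⁻¹
    rw [inv_inv] at h3
    exact h3.symm
  rw [h1, Finset.sum_const, Finset.card_univ, nsmul_eq_mul, Nat.card_eq_fintype_card,
    ← mul_assoc, inv_mul_cancel₀ (by exact_mod_cast Fintype.card_ne_zero), one_mul]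

theorem avg_congr {F F' : G → ℂ} (m : G) (h : ∀ g, F' g = F (m * g * m⁻¹)) : avg F' = avg F := by
  funext g
  rw [avg_def, avg_def]
  refine Fintype.sum_equiv (Equiv.mulRight m⁻¹) _ _ fun t => ?_
  rw [Equiv.coe_mulRight, h]
  congr 1
  group

theorem avg_comp (F : G → ℂ) (σ : G → G) (hσ : ∀ t g : G, σ (t⁻¹ * g * t) = t⁻¹ * σ g * t) (g : G) :
    avg F (σ g) = avg (fun h => F (σ h)) g := by
  rw [avg_def, avg_def]
  refine Finset.sum_congr rfl fun t _ => ?_
  rw [hσ]

theorem conj_avg {F : G → ℂ} (h : ∀ g, conj (F g) = F g) (g : G) : conj (avg F g) = avg F g := by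
  rw [avg_def, map_sum]
  exact Finset.sum_congr rfl fun t _ => h _

end avg

end Cfsg.Agent.H684.EB
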